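import Cfsg.Agent.H291.DG.InvGen
import Cfsg.Agent.H136.Gen2.Co1
import Cfsg.Agent.S0399
/-
`Co₁` is generated by the involution `g` and the element `(x y⁻¹) (w d e f)` of order 35.

With `α = x y⁻¹` (order 7), `⟨α, g⟩` contains `x`; `⟨w d e f, g⟩` contains `w, d, e, f`.
-/
set_option autoImplicit false

namespace Cfsg.Agent.H291.DG.Co1

open Subgroup Cfsg.Agent.CoOneType Cfsg.Agent.CoOneType.Model Cfsg.Agent.H136.Gen2 Cfsg.Agent.H136.Gen2.Co1

/-- `x = α α g α g α⁻¹ g α g α` -/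
theorem r_x : x = (x * y⁻¹) * (x * y⁻¹) * g * (x * y⁻¹) * g * (x * y⁻¹)⁻¹ * g * (x * y⁻¹) * g * (x * y⁻¹) := by
  have h := rel (u := [2]) (v := [2, 5, 2, 5, 10, 2, 5, 10, 4, 3, 10, 2, 5, 10, 2, 5]) (by decide +kernel)
  simpa [val, e, mul_assoc, s, t, x, y, w, d, e', f, g, Model.h, pr_inv] using h

theorem gen : closure ({g, (x * y⁻¹) * (w * d * e' * f)} : Set Spor.Co1) = ⊤ := by
  set H := closure ({g, (x * y⁻¹) * (w * d * e' * f)} : Set Spor.Co1) with hH
  have h1 : (x * y⁻¹) * (w * d * e' * f) ∈ H := subset_closure (Set.mem_insert_of_mem _ rfl)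
  have hg : g ∈ H := subset_closure (Set.mem_insert _ _)
  have hcx : Commute x (w * d * e' * f) :=
    ((p957.wx.symm.mul_right p957.dx.symm).mul_right p957.ex.symm).mul_right p957.fx.symm
  have hcy : Commute y (w * d * e' * f) :=
    ((p957.wy.symm.mul_right p957.dy.symm).mul_right p957.ey.symm).mul_right p957.fy.symm
  have hc : (x * y⁻¹) * (w * d * e' * f) = (w * d * e' * f) * (x * y⁻¹) := (hcx.mul_left hcy.inv_left).eq
  obtain ⟨hα, hβ⟩ := split_mem (m := 7) (n := 5) hc p957.xY r_u (by decide) h1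
  have hx : x ∈ H := by
    rw [r_x]
    exact mul_mem (mul_mem (mul_mem (mul_mem (mul_mem (mul_mem (mul_mem (mul_mem (mul_mem hα hα) hg) hα) hg)
      (inv_mem hα)) hg) hα) hg) hα
  have hy : y ∈ H := by
    have h3 : y = (x * y⁻¹)⁻¹ * x := by group
    rw [h3]; exact mul_mem (inv_mem hα) hx
  have hs : s ∈ H := by
    rw [r_s]
    exact mul_mem (mul_mem (mul_mem (mul_mem (mul_mem hx (inv_mem hy)) hx) (inv_mem hy)) (inv_mem hx)) (inv_mem hy)
  have ht : t ∈ H := by
    rw [r_t]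
    exact mul_mem (mul_mem (mul_mem (mul_mem (mul_mem hx hy) hx) (inv_mem hy)) hx) (inv_mem hy)
  have hh : Model.h ∈ H := by
    rw [r_h]
    exact mul_mem (mul_mem (mul_mem (mul_mem (mul_mem (mul_mem hg hy) hg) hy) hg) ht) hy
  have hch := chain_mem chRel (H := H) hg (by
    have inv : ∀ {z : Spor.Co1}, z * z = 1 → z⁻¹ = z := fun h => inv_eq_of_mul_eq_one_left h
    have h3 : H346.CoxA.Rel.r ch 5 = ((w * d * e' * f) * g)⁻¹ := by
      simp only [H346.CoxA.Rel.r, ch, mul_inv_rev, inv p957.w2, inv p957.d2, inv p957.e2, inv p957.f2, inv p957.g2,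
        one_mul, mul_assoc]
    rw [h3]
    exact inv_mem (mul_mem hβ hg))
  rw [eq_top_iff, ← Gen.closure_eq_top, closure_le]
  intro z hz
  simp only [Set.mem_insert_iff, Set.mem_singleton_iff] at hz
  rcases hz with rfl | rfl | rfl | rfl | rfl | rfl | rfl | rfl | rfl | rfl
  · exact hs
  · exact ht
  · exact hx
  · exact hy
  · exact hch 4 (by decide)
  · exact hch 3 (by decide)
  · exact hch 2 (by decide)
  · exact hch 1 (by decide)
  · exact hg
  · exact hh

theorem invGen {G : Type*} [Group G] [Finite G] [IsSimpleGroup G] (h : Cfsg.Spor.IsoCo1 G) : InvGen G := by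
  obtain ⟨e⟩ := h
  refine InvGen.of_card_equiv e ?_ (c := g) (b := (x * y⁻¹) * (w * d * e' * f)) ?_ gen
  · rw [Cfsg.Agent.S0399.result.2]
    norm_num
  · rw [pow_two, p957.g2]

end Cfsg.Agent.H291.DG.Co1
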