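import Cfsg.Agent.H291.DG.InvGen
import Cfsg.Agent.H994.TwoGen.Words
import Cfsg.Agent.Co2Type.Co2Gen
import Cfsg.Agent.H136.Gen2.Cox
/-
`Co₂` is generated by the involution `g` and the element `h * (c * d * e * f)` of order 10.

With `u = c * d * e * f` (order 5, it commutes with `h`), `⟨g, u⟩` contains `c, d, e, f, i`, and `b = (g h i) ^ 3 e`,
`a ∈ ⟨d, f, g, h⟩`.
-/
set_option autoImplicit false

namespace Cfsg.Agent.H291.DG.Co2

open Subgroup Cfsg.Agent.Co2Type.Co2Rels Cfsg.Agent.Co2Type.Co2Gen Cfsg.Agent.H994.TwoGen.Words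
  Cfsg.Agent.Co2Type.MatCodes Cfsg.Agent.SporRec.LeechMod3 Cfsg.Agent.SporRec.LeechChain
  Cfsg.Agent.Lib.PackMat

/-- the subgroup `⟨g, c d e f⟩` -/
noncomputable def K : Subgroup Cfsg.Spor.Co2 := closure {val x [7], val x [1, 2, 4, 5]}

theorem mem {w : List ℕ} {k : ℕ}
    (h : (wok gsP (expand [7] [1, 2, 4, 5] [7] [5, 4, 2, 1] w ++ [k]) && wok gsP [] &&
      checkEq cfg (wmats gsP (expand [7] [1, 2, 4, 5] [7] [5, 4, 2, 1] w ++ [k])) (wmats gsP []) 0 24) = true) :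
    x k ∈ K := by
  refine mem_of_word x (Xi := [7]) (Yi := [5, 4, 2, 1]) ?_ ?_ (w := w) (xw_eq_one h)
  · exact xw_eq_one (by decide +kernel)
  · exact xw_eq_one (by decide +kernel)

theorem f_mem : x 5 ∈ K := mem (w := [0, 3, 3, 0, 3, 0, 3, 0, 3, 3, 0, 3, 0, 1, 0, 1, 1, 0, 1, 0, 1, 0, 1, 1, 0])
  (by decide +kernel)
theorem e_mem : x 4 ∈ K := mem (w := [1, 0, 1, 0, 3, 3, 0, 1, 1, 0, 1, 0, 1, 0, 3, 0, 3, 0, 3, 3, 0, 1, 1, 0, 3, 0, 3])
  (by decide +kernel)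
theorem d_mem : x 2 ∈ K := mem (w := [0, 1, 0, 3, 3, 0, 1, 1, 0, 1, 0, 1, 0, 3, 0, 3, 0, 3, 3, 0, 1, 1, 0, 3, 0])
  (by decide +kernel)
theorem c_mem : x 1 ∈ K := mem (w := [0, 3, 0, 1, 0, 1, 1, 0, 1, 1, 0, 3, 0, 3, 0, 3, 3, 0, 3, 3, 0, 1, 0, 1, 0, 3])
  (by decide +kernel)
theorem i_mem : x 6 ∈ K := mem (w := [3, 0, 3, 0, 3, 0, 3, 0, 3, 0, 3, 0, 3, 0, 3, 0, 3, 0, 3, 0, 3, 0, 3, 0])
  (by decide +kernel)

/-- `a` as a word in `d, f, g, h` -/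
theorem a_eq : xw [0] = xw [8, 7, 2, 7, 8, 5, 7, 2, 7, 8, 5, 7, 2, 7, 8, 5, 7, 2, 7, 5, 2] := xw_eq (by decide +kernel)

theorem u5 : xw (rep [1, 2, 4, 5] 5) = 1 := xw_eq_one (by decide +kernel)

theorem hu : xw [8, 1, 2, 4, 5] = xw [1, 2, 4, 5, 8] := xw_eq (by decide +kernel)

theorem gen : closure ({x 7, x 8 * xw [1, 2, 4, 5]} : Set Cfsg.Spor.Co2) = ⊤ := by
  set H := closure ({x 7, x 8 * xw [1, 2, 4, 5]} : Set Cfsg.Spor.Co2) with hH
  have hg : x 7 ∈ H := subset_closure (Set.mem_insert _ _)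
  have hb : x 8 * xw [1, 2, 4, 5] ∈ H := subset_closure (Set.mem_insert_of_mem _ rfl)
  have hc : x 8 * xw [1, 2, 4, 5] = xw [1, 2, 4, 5] * x 8 := by
    have := hu
    rwa [show ([8, 1, 2, 4, 5] : List ℕ) = [8] ++ [1, 2, 4, 5] from rfl,
      show ([1, 2, 4, 5, 8] : List ℕ) = [1, 2, 4, 5] ++ [8] from rfl, xw_append, xw_append, xw_one] at this
  have h8 : x 8 ^ 2 = 1 := by
    rw [pow_two]
    exact pg.hh
  have hu5 : xw [1, 2, 4, 5] ^ 5 = 1 := by rw [← xw_rep, u5]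
  obtain ⟨hh, huH⟩ := Cfsg.Agent.H136.Gen2.split_mem (m := 2) (n := 5) hc h8 hu5 (by decide) hb
  have hK : K ≤ H := by
    rw [K, closure_le]
    rintro _ (rfl | rfl)
    · rw [show val x [7] = x 7 from xw_one 7]
      exact hg
    · exact huH
  have h1 := hK c_mem
  have h2 := hK d_mem
  have h4 := hK e_mem
  have h5 := hK f_mem
  have h6 := hK i_mem
  have hword : ∀ w : List ℕ, (∀ k ∈ w, x k ∈ H) → xw w ∈ H := by
    intro w hw
    refine list_prod_mem ?_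
    intro z hz
    obtain ⟨k, hk, rfl⟩ := List.mem_map.1 hz
    exact hw k hk
  have h0 : x 0 ∈ H := by
    rw [← xw_one 0, a_eq]
    apply hword
    intro k hk
    simp only [List.mem_cons, List.not_mem_nil, or_false] at hk
    rcases hk with rfl | rfl | rfl | rfl | rfl | rfl | rfl | rfl | rfl | rfl | rfl | rfl | rfl | rfl | rfl | rfl |
      rfl | rfl | rfl | rfl | rfl <;> assumption
  have h3 : x 3 ∈ H := by
    have e1 : x 3 = (x 7 * x 8 * x 6) ^ 3 * x 4 := by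
      rw [pg.r5, mul_assoc, pg.ee, mul_one]
    rw [e1]
    exact mul_mem (pow_mem (mul_mem (mul_mem hg hh) h6) 3) h4
  rw [eq_top_iff, ← Cfsg.Agent.Co2Type.Co2Gen.gen, closure_le]
  intro z hz
  simp only [Set.mem_insert_iff, Set.mem_singleton_iff] at hz
  rcases hz with rfl | rfl | rfl | rfl | rfl | rfl | rfl | rfl | rfl <;> assumption

theorem invGen {G : Type*} [Group G] [Finite G] [IsSimpleGroup G] (h : Cfsg.Spor.IsoCo2 G) : InvGen G := by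
  obtain ⟨e⟩ := h
  refine InvGen.of_card_equiv e ?_ (c := x 7) (b := x 8 * xw [1, 2, 4, 5]) ?_ gen
  · rw [Cfsg.Agent.Co2Type.CardCo2.card_co2]
    norm_num
  · rw [pow_two]
    exact pg.gg

end Cfsg.Agent.H291.DG.Co2
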