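import Cfsg.Agent.H291.DG.CohOf
import Cfsg.Agent.H291.DG.Co1
import Cfsg.Agent.H291.DG.Co2
import Cfsg.Agent.H291.DG.Co3
/-
`Coh` for the Conway groups.
-/
set_option autoImplicit false

namespace Cfsg.Agent.H291.DG

open Cfsg.Agent.H891.DG

universe u

variable {T : Type u} [Group T] [Finite T] [IsSimpleGroup T]

theorem coh_co1 (h : Cfsg.Spor.IsoCo1 T) : Coh T := (Co1.invGen h).coh
theorem coh_co2 (h : Cfsg.Spor.IsoCo2 T) : Coh T := (Co2.invGen h).coh
theorem coh_co3 (h : Cfsg.Spor.IsoCo3 T) : Coh T := (Co3.invGen h).coh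

end Cfsg.Agent.H291.DG
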