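import Cfsg.Agent.H291.DG.InvGen
import Cfsg.Agent.H994.TwoGen.Words
import Cfsg.Agent.McLType.Model
/-
The McLaughlin group is generated by an involution and another element.
-/
set_option autoImplicit false

namespace Cfsg.Agent.H291.DG.McL

open Cfsg Cfsg.Agent.H994.TwoGen Cfsg.Agent.H994.TwoGen.Words Cfsg.Agent.McLType.Model

/-- the first element, as a word in the seven involutions -/
def wX : List (Fin 7) := [5]
/-- the second element, as a word in the seven involutions -/
def wY : List (Fin 7) := [0, 6, 3, 4, 2]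

/-- words for the seven involutions in the two elements -/
def W : Fin 7 → List ℕ
  | 0 => [1, 1, 0, 1, 0, 1, 1, 1, 0, 3, 3, 3, 3, 3, 3, 3, 0, 3, 3, 3, 0, 3, 0, 3, 3]
  | 1 => [3, 0, 1, 0, 3, 3, 0, 1, 0, 3, 3, 0, 3, 0, 3, 3, 0, 1, 1, 0, 1, 1, 0, 3, 0, 1, 1, 1]
  | 2 => [0, 3, 3, 3, 3, 3, 3, 3, 0, 3, 3, 3, 3, 3, 3, 3, 0]
  | 3 => [3, 0, 1, 1, 1, 0, 1, 1, 0, 3, 3, 0, 3, 3, 3, 0, 1]
  | 4 => [0, 3, 3, 3, 0, 3, 3, 3, 0, 1, 1, 0, 1, 1, 1, 0, 1, 0, 1, 0, 3, 3, 0]
  | 5 => [0]
  | 6 => [3, 3, 0, 3, 0, 3, 3, 0, 3, 3, 3, 0, 1, 1, 1, 0, 1, 1, 0, 1, 0, 1, 1]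

theorem chk_X : idCheck (wX ++ wX.reverse) = true := by decide +kernel
theorem chk_Y : idCheck (wY ++ wY.reverse) = true := by decide +kernel
theorem chk_0 : idCheck (expand wX wY wX.reverse wY.reverse (W 0) ++ [0]) = true := by decide +kernel
theorem chk_1 : idCheck (expand wX wY wX.reverse wY.reverse (W 1) ++ [1]) = true := by decide +kernel
theorem chk_2 : idCheck (expand wX wY wX.reverse wY.reverse (W 2) ++ [2]) = true := by decide +kernel
theorem chk_3 : idCheck (expand wX wY wX.reverse wY.reverse (W 3) ++ [3]) = true := by decide +kernel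
theorem chk_4 : idCheck (expand wX wY wX.reverse wY.reverse (W 4) ++ [4]) = true := by decide +kernel
theorem chk_5 : idCheck (expand wX wY wX.reverse wY.reverse (W 5) ++ [5]) = true := by decide +kernel
theorem chk_6 : idCheck (expand wX wY wX.reverse wY.reverse (W 6) ++ [6]) = true := by decide +kernel

theorem gen : Subgroup.closure ({val m wX, val m wY} : Set Cfsg.Agent.McLType.X275.G1) = ⊤ := by
  rw [eq_top_iff, ← closure_m, Subgroup.closure_le]
  rintro _ ⟨k, rfl⟩
  have key : val m (expand wX wY wX.reverse wY.reverse (W k) ++ [k]) = 1 := by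
    match k with
    | 0 => exact word_m chk_0
    | 1 => exact word_m chk_1
    | 2 => exact word_m chk_2
    | 3 => exact word_m chk_3
    | 4 => exact word_m chk_4
    | 5 => exact word_m chk_5
    | 6 => exact word_m chk_6
  exact mem_of_word m (word_m chk_X) (word_m chk_Y) key

open Cfsg.Agent.SporadicStructure.PermChain Cfsg.Agent.McLType.X275 Cfsg.Agent.McLType.Gens in
/-- words with different values -/
theorem ne_of {v w : List (Fin 7)} (i : Fin 275)
    (h : Nat.beq (evalWord 9 tabs (v.map (fun k => (k : ℕ))) i) (evalWord 9 tabs (w.map (fun k => (k : ℕ))) i)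
      = false) : val m v ≠ val m w := by
  intro h0
  have h2 : (ψ ∘ m) = σ := funext ψ_m
  have h3 : (v.map σ).prod = (w.map σ).prod := by
    have h1 := congrArg ψ h0
    rw [val, val, map_list_prod, map_list_prod, List.map_map, List.map_map, h2] at h1
    exact h1
  have h4 := evalWord_σ v i
  rw [h3, evalWord_σ] at h4
  rw [h4, Nat.beq_refl] at h
  exact Bool.noConfusion h

theorem invGen_G1 : InvGen Cfsg.Agent.McLType.X275.G1 := by
  refine ⟨val m wX, val m wY, ?_, ?_, gen⟩
  · rw [pow_two, ← val_append]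
    exact word_m chk_X
  · rw [← val_append, ← val_append]
    exact ne_of 0 (by decide +kernel)

theorem invGen {G : Type*} [Group G] (h : Cfsg.Spor.IsoMcL G) : InvGen G := by
  obtain ⟨e⟩ := h
  obtain ⟨e'⟩ := Cfsg.Agent.McLType.X275.isoMcL_G1
  exact InvGen.congr (e.trans e'.symm) invGen_G1

end Cfsg.Agent.H291.DG.McL
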