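import Cfsg.Agent.H291.DG.InvGen
import Cfsg.Agent.H994.TwoGen.Words
import Cfsg.Agent.SporadicRecognition.SuzOrder
/-
The sporadic Suzuki group is generated by the involution `d` and the element `a e g f b c` (of order 14).
-/
set_option autoImplicit false
set_option maxRecDepth 100000
set_option exponentiation.threshold 4000

namespace Cfsg.Agent.H291.DG.Suz

open Cfsg.Spor Cfsg.Agent.H994.TwoGen.Words Cfsg.Agent.Lib.PermNet Cfsg.Agent.Lib.PermNetOrbit
  Cfsg.Agent.SporadicRecognition.SuzPhi Cfsg.Agent.SporadicRecognition.SuzOrder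

/-- the letters -/
def m (x : Suz.Gen) : Suz := PresentedGroup.of x

theorem one_of {w : List Suz.Gen} (h : checkEq 11 (wd w) (wd []) = true) : val m w = 1 := by
  have h1 : φ (el w) = φ (el []) := by
    rw [φ_el, φ_el]
    exact wperm_eq_of_checkEq (wd_ok _) (wd_ok _) h
  exact φ_injective h1

/-- first generator -/
def wX : List Suz.Gen := [.d]
/-- second generator -/
def wY : List Suz.Gen := [.a, .e, .g, .f, .b, .c]
/-- its inverse -/
def wYi : List Suz.Gen := [.c, .b, .f, .g, .e, .a]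

/-- the group they generate -/
def H : Subgroup Suz := Subgroup.closure {val m wX, val m wY}

theorem chk_X : val m (wX ++ wX) = 1 := one_of (by decide +kernel)
theorem chk_Y : val m (wY ++ wYi) = 1 := one_of (by decide +kernel)

theorem mem {w : List ℕ} {k : Suz.Gen}
    (h : checkEq 11 (wd (expand wX wY wX wYi w ++ [k])) (wd []) = true) : m k ∈ H :=
  mem_of_word m chk_X chk_Y (one_of h)

theorem mem_a : m .a ∈ H := mem (w := [0, 3, 0, 1, 0, 3, 0, 1, 0, 3, 0, 1])
  (by decide +kernel)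
theorem mem_b : m .b ∈ H := mem (w := [0, 3, 0, 1, 0, 3, 0, 3, 3, 0, 1, 1, 1, 0, 3, 0, 3, 3, 0, 3, 0, 3, 0, 1, 0, 3, 0, 1, 0, 3, 0, 3])
  (by decide +kernel)
theorem mem_c : m .c ∈ H := mem (w := [0, 1, 0, 3, 0, 3, 3, 0, 1, 1, 1, 0, 3, 0, 3, 3, 0, 3, 0, 3, 0, 1, 0, 3, 0, 1, 0, 3, 0, 3, 0, 3])
  (by decide +kernel)
theorem mem_d : m .d ∈ H := mem (w := [0])
  (by decide +kernel)
theorem mem_e : m .e ∈ H := mem (w := [3, 3, 3, 3, 3, 3, 3])
  (by decide +kernel)
theorem mem_f : m .f ∈ H := mem (w := [3, 3, 3, 3, 3, 0, 1, 1, 1, 1, 0, 1, 0, 1, 1, 0, 3, 3, 0, 3, 0, 3, 3, 3, 3, 0, 3, 3])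
  (by decide +kernel)
theorem mem_g : m .g ∈ H := mem (w := [1, 1, 0, 1, 1, 1, 1, 0, 3, 3, 3, 3, 0, 1, 1, 0, 3, 3, 0, 1, 1, 0, 1, 1, 0, 3, 3, 3, 3, 0, 3, 3])
  (by decide +kernel)

theorem H_eq : H = ⊤ := by
  rw [eq_top_iff, ← PresentedGroup.closure_range_of, Subgroup.closure_le]
  rintro _ ⟨k, rfl⟩
  cases k
  · exact mem_a
  · exact mem_b
  · exact mem_c
  · exact mem_d
  · exact mem_e
  · exact mem_f
  · exact mem_g

/-- words with different values -/
theorem ne_of {v w : List Suz.Gen} (p : ℕ) (h : Nat.beq (ptWord (wd v) p) (ptWord (wd w) p) = false) :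
    val m v ≠ val m w := by
  intro h0
  have h1 : wperm (wd v) = wperm (wd w) := by
    rw [← φ_el, ← φ_el, show el v = el w from h0]
  rw [ptWord_eq (wd_ok v), ptWord_eq (wd_ok w), h1, Nat.beq_refl] at h
  exact Bool.noConfusion h

theorem invGen_suz : InvGen Suz := by
  refine ⟨val m wX, val m wY, ?_, ?_, H_eq⟩
  · rw [pow_two, ← val_append]
    exact chk_X
  · rw [← val_append, ← val_append]
    exact ne_of 2 (by decide +kernel)

theorem invGen {G : Type*} [Group G] (h : Cfsg.Spor.IsoSuz G) : InvGen G := by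
  obtain ⟨e⟩ := h
  exact InvGen.congr e invGen_suz

end Cfsg.Agent.H291.DG.Suz
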