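import Cfsg.Agent.H291.DG.CohOf
import Cfsg.Agent.H291.DG.HS
import Cfsg.Agent.H291.DG.McL
import Cfsg.Agent.H291.DG.Suz
/-
`Coh` for `HS`, `McL`, `Suz`.
-/
set_option autoImplicit false

namespace Cfsg.Agent.H291.DG

open Cfsg.Agent.H891.DG

universe u

variable {T : Type u} [Group T] [Finite T] [IsSimpleGroup T]

theorem coh_hs (h : Cfsg.Spor.IsoHS T) : Coh T := (HS.invGen h).coh
theorem coh_mcl (h : Cfsg.Spor.IsoMcL T) : Coh T := (McL.invGen h).coh
theorem coh_suz (h : Cfsg.Spor.IsoSuz T) : Coh T := (Suz.invGen h).coh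

end Cfsg.Agent.H291.DG
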