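import Cfsg.Agent.H291.DG.InvGen
import Cfsg.Agent.H994.TwoGen.M11
import Cfsg.Agent.H994.TwoGen.M12
import Cfsg.Agent.H994.TwoGen.M22
import Cfsg.Agent.H994.TwoGen.M23
import Cfsg.Agent.J4.M24Hom
/-
The Mathieu groups are generated by an involution and another element.
-/
set_option autoImplicit false

namespace Cfsg.Agent.H291.DG.Mathieu

open Subgroup Cfsg

theorem m11 : InvGen ↥Spor.M11 :=
  InvGen.of_closure (sq_of_inv (by decide +kernel)) (ne_of_apply (some 1) (by decide +kernel))
    (pair_swap H994.TwoGen.M11.closure_eq)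

theorem m12 : InvGen ↥Spor.M12 :=
  InvGen.of_closure (sq_of_inv (by decide +kernel)) (ne_of_apply (some 0) (by decide +kernel))
    (pair_swap H994.TwoGen.M12.closure_eq)

theorem m22 : InvGen ↥Spor.M22 :=
  InvGen.of_closure (sq_of_inv (by decide +kernel)) (ne_of_apply (some 1) (by decide +kernel))
    (pair_swap H994.TwoGen.M22.closure_eq)

theorem m23 : InvGen ↥Spor.M23 :=
  InvGen.of_closure (sq_of_inv (by decide +kernel)) (ne_of_apply (some 4) (by decide +kernel))
    (pair_swap H994.TwoGen.M23.closure_eq)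

theorem m24 : InvGen ↥M24 :=
  InvGen.of_closure (sq_of_inv (by decide +kernel)) (ne_of_apply (some 0) (by decide +kernel))
    J4.M24Hom.closure_XY

end Cfsg.Agent.H291.DG.Mathieu
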