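import Cfsg.Agent.H291.DG.CohOf
import Cfsg.Agent.H291.DG.Mathieu
/-
`Coh` for the Mathieu groups.
-/
set_option autoImplicit false

namespace Cfsg.Agent.H291.DG

open Cfsg.Agent.H891.DG

universe u

variable {T : Type u} [Group T] [Finite T] [IsSimpleGroup T]

theorem coh_m11 (h : Cfsg.Spor.IsoM11 T) : Coh T := (Mathieu.m11.congr h.some).coh
theorem coh_m12 (h : Cfsg.Spor.IsoM12 T) : Coh T := (Mathieu.m12.congr h.some).coh
theorem coh_m22 (h : Cfsg.Spor.IsoM22 T) : Coh T := (Mathieu.m22.congr h.some).coh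
theorem coh_m23 (h : Cfsg.Spor.IsoM23 T) : Coh T := (Mathieu.m23.congr h.some).coh
theorem coh_m24 (h : Cfsg.Spor.IsoM24 T) : Coh T := (Mathieu.m24.congr h.some).coh

end Cfsg.Agent.H291.DG
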